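import Mathlib
import Cfsg.Agent.Lib.Solvable.Frattini

/-!
# Small facts on derived subgroups of p-groups
-/

set_option autoImplicit false

namespace CfsgLib.PFourth

open scoped commutatorElement

universe u

variable {P : Type u} [Group P]

theorem comm_mem {a b : P} : ⁅a, b⁆ ∈ commutator P :=
  Subgroup.commutator_mem_commutator (Subgroup.mem_top a) (Subgroup.mem_top b)

variable [Finite P] {p : ℕ} [hp : Fact p.Prime]

theorem index_center_ne (hP : IsPGroup p P) (hna : ¬ ∀ a b : P, a * b = b * a) :
    p ^ 2 ∣ (Subgroup.center P).index := by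
  obtain ⟨k, hk⟩ := hP.index (Subgroup.center P)
  rw [hk]
  refine pow_dvd_pow p ?_
  by_contra hlt
  apply hna
  haveI : IsCyclic (P ⧸ Subgroup.center P) := by
    rcases Nat.lt_succ_iff.mp (show k < 2 by omega) |> Nat.le_one_iff_eq_zero_or_eq_one.mp with rfl | rfl
    · haveI : Subsingleton (P ⧸ Subgroup.center P) := by
        refine (Nat.card_eq_one_iff_unique.mp ?_).1
        rw [← Subgroup.index_eq_card, hk, pow_zero]
      infer_instance
    · exact isCyclic_of_prime_card (p := p) (by rw [← Subgroup.index_eq_card, hk, pow_one])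
  haveI := isMulCommutative_of_isCyclic_quotient_center_self (G := P)
  exact fun a b => IsMulCommutative.is_comm.comm a b

/-- Central derived subgroup: the index of the centre at `p²` bounds the derived subgroup. -/
theorem card_commutator_of_index (hP : IsPGroup p P) (h : (Subgroup.center P).index = p ^ 2) :
    Nat.card (commutator P) = p := by
  classical
  set Z := Subgroup.center P with hZ
  have hcard : Nat.card (P ⧸ Z) = p ^ 2 := by rw [← Subgroup.index_eq_card, h]
  haveI : IsMulCommutative (P ⧸ Z) := IsPGroup.isMulCommutative_of_card_eq_prime_sq hcard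
  have hPZ : commutator P ≤ Z := by
    refine Subgroup.commutator_le.mpr fun a _ b _ => ?_
    rw [← QuotientGroup.eq_one_iff, ← QuotientGroup.mk'_apply, map_commutatorElement,
      commutatorElement_eq_one_iff_mul_comm]
    exact IsMulCommutative.is_comm.comm _ _
  have hcen : ∀ z ∈ Z, ∀ g : P, g * z = z * g := fun z hz => Subgroup.mem_center_iff.mp hz
  obtain ⟨a, ha⟩ : ∃ a : P, a ∉ Z := by
    by_contra hh
    push Not at hh
    have : Z = ⊤ := (Subgroup.eq_top_iff' Z).mpr hh
    rw [this, Subgroup.index_top] at h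
    exact (Nat.one_lt_pow two_ne_zero hp.out.one_lt).ne h
  let f : P →* Z := MonoidHom.mk' (fun b => ⟨⁅a, b⁆, hPZ comm_mem⟩) fun b c => by
    apply Subtype.ext
    show ⁅a, b * c⁆ = ⁅a, b⁆ * ⁅a, c⁆
    have h1 : b * ⁅a, c⁆ * b⁻¹ = ⁅a, c⁆ := by
      rw [hcen _ (hPZ comm_mem) b, mul_inv_cancel_right]
    rw [show ⁅a, b * c⁆ = ⁅a, b⁆ * (b * ⁅a, c⁆ * b⁻¹) by simp only [commutatorElement_def]; group, h1]
  have hker : Z ⊔ Subgroup.zpowers a ≤ f.ker := by
    refine sup_le (fun z hz => Subtype.ext ?_) (Subgroup.zpowers_le.mpr (Subtype.ext (commutatorElement_self a)))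
    show ⁅a, z⁆ = 1
    rw [commutatorElement_eq_one_iff_mul_comm]; exact hcen z hz a
  set M := Z ⊔ Subgroup.zpowers a with hM
  have hMidx : M.index ∣ p := by
    have hlt : Z < M := lt_of_le_of_ne le_sup_left fun e => ha (e.symm.le (Subgroup.mem_sup_right (Subgroup.mem_zpowers a)))
    obtain ⟨k, hk⟩ := hP.index M
    have h1 := Subgroup.relIndex_mul_index hlt.le
    have h2 : Z.relIndex M ≠ 1 := fun e => hlt.not_ge (Subgroup.relIndex_eq_one.mp e)
    rw [h, hk] at h1
    rw [hk]
    refine (pow_dvd_pow p ?_).trans (pow_one p).dvd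
    by_contra hk2
    apply h2
    have h3 : p ^ 2 ∣ p ^ k := pow_dvd_pow p (by omega)
    have h4 : p ^ k ∣ p ^ 2 := h1 ▸ dvd_mul_left _ _
    rw [Nat.dvd_antisymm h4 h3] at h1
    exact (mul_eq_right₀ (pow_ne_zero 2 hp.out.ne_zero)).mp h1
  have hrange : Nat.card f.range ∣ p := by
    rw [← Subgroup.index_ker]; exact (Subgroup.index_dvd_of_le hker).trans hMidx
  have hna : ¬ ∀ x y : P, x * y = y * x := fun hh => ha (Subgroup.mem_center_iff.mpr fun g => hh g a)
  have hle : commutator P ≤ f.range.map Z.subtype := by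
    set C := f.range.map Z.subtype with hC
    haveI : C.Normal := ⟨fun c hc g => by
      obtain ⟨z, _, rfl⟩ := hc
      have : g * (z : P) * g⁻¹ = z := by rw [hcen _ z.2 g, mul_inv_cancel_right]
      show g * (z : P) * g⁻¹ ∈ C
      rw [this]
      exact ⟨z, by assumption, rfl⟩⟩
    obtain ⟨b, hb⟩ : ∃ b : P, b ∉ M ∨ M = ⊤ := by
      by_cases hMt : M = ⊤
      · exact ⟨a, Or.inr hMt⟩
      · obtain ⟨b, -, hb⟩ := SetLike.exists_of_lt (lt_top_iff_ne_top.mpr hMt)
        exact ⟨b, Or.inl hb⟩
    rcases hb with hb | hMt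
    · have hab : (QuotientGroup.mk' C a) * QuotientGroup.mk' C b = QuotientGroup.mk' C b * QuotientGroup.mk' C a := by
        rw [← commutatorElement_eq_one_iff_mul_comm, ← map_commutatorElement, QuotientGroup.mk'_apply,
          QuotientGroup.eq_one_iff]
        exact ⟨f b, ⟨b, rfl⟩, rfl⟩
      set D : Subgroup P := Z ⊔ Subgroup.closure {a, b} with hD
      have hDt : D = ⊤ := by
        have hMD : M ≤ D := sup_le le_sup_left
          (Subgroup.zpowers_le.mpr (Subgroup.mem_sup_right (Subgroup.subset_closure (by simp))))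
        rw [← Subgroup.index_eq_one]
        have h1 := Subgroup.relIndex_mul_index hMD
        have h2 : M.relIndex D ≠ 1 := fun e => hb (Subgroup.relIndex_eq_one.mp e
          (Subgroup.mem_sup_right (Subgroup.subset_closure (by simp))))
        rcases (Nat.dvd_prime hp.out).mp hMidx with h3 | h3
        · exact absurd (Subgroup.index_eq_one.mp h3 ▸ Subgroup.mem_top b : b ∈ M) hb
        · rw [h3] at h1
          rcases (Nat.dvd_prime hp.out).mp (h1 ▸ dvd_mul_left D.index _) with h4 | h4
          · exact h4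
          · rw [h4] at h1
            exact absurd ((mul_eq_right₀ hp.out.ne_zero).mp h1) h2
      have hcl : D ≤ (Subgroup.centralizer ((QuotientGroup.mk' C) '' {a, b})).comap (QuotientGroup.mk' C) := by
        rw [hD]
        refine sup_le ?_ ((Subgroup.closure_le _).mpr ?_)
        · intro z hz
          rw [Subgroup.mem_comap, Subgroup.mem_centralizer_iff]
          rintro _ ⟨x, _, rfl⟩
          rw [← map_mul, ← map_mul, hcen z hz x]
        · intro x hx
          rw [SetLike.mem_coe, Subgroup.mem_comap, Subgroup.mem_centralizer_iff]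
          rintro _ ⟨y, hy, rfl⟩
          rcases hx with rfl | rfl <;> rcases hy with rfl | rfl
          all_goals first
            | rfl
            | exact hab
            | exact hab.symm
      refine Subgroup.commutator_le.mpr fun x _ y _ => ?_
      rw [← QuotientGroup.eq_one_iff, ← QuotientGroup.mk'_apply, map_commutatorElement,
        commutatorElement_eq_one_iff_mul_comm]
      have hx : x ∈ D := hDt ▸ Subgroup.mem_top x
      have hy : y ∈ D := hDt ▸ Subgroup.mem_top y
      have : D ≤ (Subgroup.centralizer {QuotientGroup.mk' C x}).comap (QuotientGroup.mk' C) := by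
        rw [hD]
        refine sup_le ?_ ((Subgroup.closure_le _).mpr ?_)
        · intro z hz
          rw [Subgroup.mem_comap, Subgroup.mem_centralizer_singleton_iff, ← map_mul, ← map_mul, hcen z hz x]
        · intro w hw
          rw [SetLike.mem_coe, Subgroup.mem_comap, Subgroup.mem_centralizer_singleton_iff]
          exact Subgroup.mem_centralizer_iff.mp (hcl hx) _ ⟨w, hw, rfl⟩
      exact (Subgroup.mem_centralizer_singleton_iff.mp (this hy)).symm
    · exfalso
      apply hna
      have h2 : M ≤ Subgroup.centralizer {a} := sup_le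
        (fun z hz => Subgroup.mem_centralizer_singleton_iff.mpr (hcen z hz a).symm)
        (Subgroup.zpowers_le.mpr (Subgroup.mem_centralizer_singleton_iff.mpr rfl))
      exact absurd (Subgroup.mem_center_iff.mpr fun g => Subgroup.mem_centralizer_singleton_iff.mp
        (h2 (hMt ▸ Subgroup.mem_top g))) ha
  have h1 : Nat.card (commutator P) ∣ p := (Subgroup.card_dvd_of_le hle).trans
    ((dvd_of_eq (Subgroup.card_map_of_injective Z.subtype_injective)).trans hrange)
  refine ((Nat.dvd_prime hp.out).mp h1).resolve_left fun e => hna fun x y => ?_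
  rw [Subgroup.card_eq_one] at e
  rw [← commutatorElement_eq_one_iff_mul_comm, ← Subgroup.mem_bot, ← e]
  exact comm_mem

/-- Converse in order `p⁴`. -/
theorem index_of_card_commutator (hP : Nat.card P = p ^ 4) (h : Nat.card (commutator P) = p) :
    (Subgroup.center P).index = p ^ 2 := by
  classical
  have hPp : IsPGroup p P := IsPGroup.of_card hP
  set Z := Subgroup.center P with hZdef
  have hD : Nat.card (commutator P) ≠ 1 := by rw [h]; exact hp.out.one_lt.ne'
  have hna : ¬ ∀ x y : P, x * y = y * x := fun hh => hD (Subgroup.card_eq_one.mpr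
    (le_bot_iff.mp (Subgroup.commutator_le.mpr fun x _ y _ => Subgroup.mem_bot.mpr
      (commutatorElement_eq_one_iff_mul_comm.mpr (hh x y)))))
  have hDZ : commutator P ≤ Z := by
    -- a normal subgroup of order `p` of a p-group is central
    haveI : (commutator P).Normal := inferInstance
    intro d hd
    rw [hZdef, Subgroup.mem_center_iff]
    intro g
    let φ : P →* MulAut (commutator P) := MulAut.conjNormal
    haveI : IsCyclic (commutator P) := isCyclic_of_prime_card h
    let aut : MulAut (commutator P) ≃* (ZMod (Nat.card (commutator P)))ˣ := IsCyclic.mulAutMulEquiv _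
    have hg : φ g = 1 := by
      obtain ⟨k, hk⟩ := hPp g
      have h1 : orderOf (φ g) ∣ p ^ k := (orderOf_map_dvd _ _).trans (orderOf_dvd_of_pow_eq_one hk)
      have h2 : orderOf (φ g) ∣ p - 1 := by
        rw [← aut.orderOf_eq]
        refine (orderOf_dvd_natCard _).trans ?_
        rw [h, Nat.card_eq_fintype_card, ZMod.card_units]
      exact orderOf_eq_one_iff.mp (Nat.eq_one_of_dvd_coprimes
        ((hp.out.coprime_iff_not_dvd.mpr fun hd' => by
          have := hp.out.two_le
          have := Nat.le_of_dvd (by omega) hd'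
          omega).pow_left k) h1 h2)
    have := congrArg Subtype.val (DFunLike.congr_fun hg (⟨d, hd⟩ : commutator P))
    rw [MulAut.conjNormal_apply] at this
    exact mul_inv_eq_iff_eq_mul.mp this
  have hdvd := index_center_ne hPp hna
  obtain ⟨a, ha⟩ : ∃ a : P, a ∉ Z := by
    by_contra hh; push Not at hh
    exact hna fun x y => Subgroup.mem_center_iff.mp (hh y) x
  have hom : ∀ c : P, ∃ f : P →* commutator P, ∀ x, (f x : P) = ⁅c, x⁆ := fun c =>
    ⟨MonoidHom.mk' (fun x => ⟨⁅c, x⁆, comm_mem⟩) (fun x y => Subtype.ext (by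
      show ⁅c, x * y⁆ = ⁅c, x⁆ * ⁅c, y⁆
      rw [show ⁅c, x * y⁆ = ⁅c, x⁆ * (x * ⁅c, y⁆ * x⁻¹) by simp only [commutatorElement_def]; group,
        Subgroup.mem_center_iff.mp (hDZ comm_mem) x, mul_inv_cancel_right])), fun _ => rfl⟩
  obtain ⟨fa, hfa⟩ := hom a
  have hkidx : ∀ f : P →* commutator P, f.ker.index ∣ p := fun f => by
    rw [Subgroup.index_ker]; exact (Subgroup.card_subgroup_dvd_card _).trans (dvd_of_eq h)
  obtain ⟨b, hb⟩ : ∃ b : P, b ∉ fa.ker := by
    by_contra hh; push Not at hh
    apply ha
    rw [hZdef, Subgroup.mem_center_iff]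
    intro g
    have := congrArg Subtype.val (MonoidHom.mem_ker.mp (hh g))
    rw [hfa, OneMemClass.coe_one, commutatorElement_eq_one_iff_mul_comm] at this
    exact this.symm
  obtain ⟨fb, hfb⟩ := hom b
  have hamem : a ∈ fa.ker := Subtype.ext (by rw [hfa]; simp)
  have hanb : a ∉ fb.ker := fun hh => hb (Subtype.ext (by
    have := congrArg Subtype.val (MonoidHom.mem_ker.mp hh)
    rw [hfb, OneMemClass.coe_one, commutatorElement_eq_one_iff_mul_comm] at this
    rw [hfa, OneMemClass.coe_one, commutatorElement_eq_one_iff_mul_comm]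
    exact this.symm))
  set K := fa.ker ⊓ fb.ker with hK
  have hKZ : Z ≤ K := fun z hz => ⟨Subtype.ext (by
      rw [hfa, OneMemClass.coe_one, commutatorElement_eq_one_iff_mul_comm]
      exact Subgroup.mem_center_iff.mp hz a), Subtype.ext (by
      rw [hfb, OneMemClass.coe_one, commutatorElement_eq_one_iff_mul_comm]
      exact Subgroup.mem_center_iff.mp hz b)⟩
  have hKidx : K.index = p ^ 2 := by
    have hA : fa.ker.index = p := ((Nat.dvd_prime hp.out).mp (hkidx fa)).resolve_left fun e =>
      hb (Subgroup.index_eq_one.mp e ▸ Subgroup.mem_top b)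
    have hB : fb.ker.index = p := ((Nat.dvd_prime hp.out).mp (hkidx fb)).resolve_left fun e =>
      hanb (Subgroup.index_eq_one.mp e ▸ Subgroup.mem_top a)
    have h1 := Subgroup.relIndex_mul_index (inf_le_left : K ≤ fa.ker)
    have h2 : K.relIndex fa.ker ∣ p := by
      rw [hK, Subgroup.inf_relIndex_left]
      exact (Subgroup.relIndex_dvd_index_of_normal _ _).trans (dvd_of_eq hB)
    have h3 : K.relIndex fa.ker ≠ 1 := fun e => hanb (Subgroup.relIndex_eq_one.mp e hamem).2
    rw [hA, ((Nat.dvd_prime hp.out).mp h2).resolve_left h3] at h1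
    rw [← h1, sq]
  have hKcard : Nat.card K = p ^ 2 := by
    have := Subgroup.card_mul_index K
    rw [hKidx, hP] at this
    exact Nat.eq_of_mul_eq_mul_right (pow_pos hp.out.pos 2) (this.trans (by ring))
  haveI : IsMulCommutative K := IsPGroup.isMulCommutative_of_card_eq_prime_sq hKcard
  have hKle : K ≤ Z := by
    intro d hd
    have hgen : (⊤ : Subgroup P) ≤ Subgroup.centralizer {d} := by
      have h1 : K ⊔ Subgroup.closure {a, b} = ⊤ := by
        rw [← Subgroup.index_eq_one]
        have ha' : a ∈ K ⊔ Subgroup.closure {a, b} := Subgroup.mem_sup_right (Subgroup.subset_closure (by simp))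
        have hb' : b ∈ K ⊔ Subgroup.closure {a, b} := Subgroup.mem_sup_right (Subgroup.subset_closure (by simp))
        set L := K ⊔ Subgroup.closure {a, b}
        have hL : K ≤ L := le_sup_left
        set L₁ := K ⊔ Subgroup.zpowers a with hL₁
        have h11 : K.relIndex L₁ ≠ 1 := fun e => hanb (Subgroup.relIndex_eq_one.mp e
          (Subgroup.mem_sup_right (Subgroup.mem_zpowers a))).2
        have hL₁L : L₁ ≤ L := sup_le hL (Subgroup.zpowers_le.mpr ha')
        have hb1 : b ∉ L₁ := fun hbb => hb ((sup_le inf_le_left (Subgroup.zpowers_le.mpr hamem) : L₁ ≤ fa.ker) hbb)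
        have h12 : L₁.relIndex L ≠ 1 := fun e => hb1 (Subgroup.relIndex_eq_one.mp e hb')
        have e1 := Subgroup.relIndex_mul_index (le_sup_left : K ≤ L₁)
        have e2 := Subgroup.relIndex_mul_index hL₁L
        rw [← e2, hKidx] at e1
        obtain ⟨i, -, hi⟩ := (Nat.dvd_prime_pow hp.out).mp (e1 ▸ dvd_mul_right (K.relIndex L₁) _)
        obtain ⟨j, -, hj⟩ := (Nat.dvd_prime_pow hp.out).mp ((dvd_mul_right (L₁.relIndex L) L.index).trans
          (e1 ▸ dvd_mul_left _ (K.relIndex L₁)))
        obtain ⟨k, -, hk⟩ := (Nat.dvd_prime_pow hp.out).mp ((dvd_mul_left L.index (L₁.relIndex L)).trans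
          (e1 ▸ dvd_mul_left _ (K.relIndex L₁)))
        have hi0 : i ≠ 0 := fun e => h11 (by rw [hi, e, pow_zero])
        have hj0 : j ≠ 0 := fun e => h12 (by rw [hj, e, pow_zero])
        rw [hi, hj, hk, ← pow_add, ← pow_add] at e1
        have := Nat.pow_right_injective hp.out.two_le e1
        rw [hk, show k = 0 by omega, pow_zero]
      rw [← h1]
      refine sup_le (fun k hk => ?_) ((Subgroup.closure_le _).mpr ?_)
      · rw [Subgroup.mem_centralizer_singleton_iff]
        exact congrArg Subtype.val (IsMulCommutative.is_comm.comm (⟨k, hk⟩ : K) ⟨d, hd⟩)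
      · rintro w (rfl | rfl) <;> rw [SetLike.mem_coe, Subgroup.mem_centralizer_singleton_iff]
        · have := congrArg Subtype.val (MonoidHom.mem_ker.mp hd.1)
          rwa [hfa, OneMemClass.coe_one, commutatorElement_eq_one_iff_mul_comm] at this
        · have := congrArg Subtype.val (MonoidHom.mem_ker.mp hd.2)
          rwa [hfb, OneMemClass.coe_one, commutatorElement_eq_one_iff_mul_comm] at this
    rw [hZdef, Subgroup.mem_center_iff]
    exact fun g => Subgroup.mem_centralizer_singleton_iff.mp (hgen (Subgroup.mem_top g))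
  rw [← hKidx, le_antisymm hKle hKZ]

/-- The kernel of `n ↦ [x, n]` on `N/N'` has the order of `N/P'`. -/
theorem card_fix (N : Subgroup P) [N.Normal] (hN : N.index = p) (x : P) (hx : x ∉ N) :
    Nat.card {n : N // x * n * x⁻¹ * (n : P)⁻¹ ∈ (commutator N).map N.subtype} * p =
      Nat.card (commutator N) * (commutator P).index := by
  classical
  haveI : IsMulCommutative (Abelianization N) := ⟨⟨mul_comm⟩⟩
  have hmem : ∀ n : N, x * n * x⁻¹ * (n : P)⁻¹ ∈ N := fun n =>
    N.mul_mem (‹N.Normal›.conj_mem _ n.2 x) (N.inv_mem n.2)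
  let c : N → N := fun n => ⟨x * n * x⁻¹ * (n : P)⁻¹, hmem n⟩
  let f : N →* Abelianization N := MonoidHom.mk' (fun n => Abelianization.of (c n)) fun n m => by
    have h1 : c (n * m) = c n * (n * c m * n⁻¹) := Subtype.ext (by simp only [c, Subgroup.coe_mul, Subgroup.coe_inv]; group)
    rw [h1, map_mul, map_mul, map_mul, map_inv, mul_inv_cancel_comm]
  have hker : Nat.card {n : N // x * n * x⁻¹ * (n : P)⁻¹ ∈ (commutator N).map N.subtype} = Nat.card f.ker := by
    refine Nat.card_congr (Equiv.subtypeEquivRight fun n => ?_)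
    rw [MonoidHom.mem_ker, MonoidHom.mk'_apply, show (Abelianization.of (c n) = 1) ↔ c n ∈ commutator N from
      QuotientGroup.eq_one_iff _]
    exact Subgroup.mem_map_iff_mem N.subtype_injective (x := c n)
  rw [hker]
  set R : Subgroup N := f.range.comap Abelianization.of with hR
  have hNR : commutator N ≤ R := fun d hd => by
    rw [hR, Subgroup.mem_comap, show Abelianization.of d = 1 from (QuotientGroup.eq_one_iff d).mpr hd]
    exact one_mem _
  set K : Subgroup P := R.map N.subtype with hKdef
  have hKN : K ≤ N := Subgroup.map_subtype_le R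
  have hcK : ∀ n : N, x * n * x⁻¹ * (n : P)⁻¹ ∈ K := fun n =>
    ⟨c n, ⟨n, rfl⟩, rfl⟩
  have hNN : ∀ a ∈ N, ∀ b ∈ N, ⁅a, b⁆ ∈ K := fun a ha b hb =>
    ⟨⁅(⟨a, ha⟩ : N), ⟨b, hb⟩⁆, hNR comm_mem, rfl⟩
  have hKn : ∀ k ∈ K, ∀ n ∈ N, n * k * n⁻¹ ∈ K := by
    intro k hk n hn
    rw [show n * k * n⁻¹ = ⁅n, k⁆ * k by simp only [commutatorElement_def]; group]
    exact K.mul_mem (hNN n hn k (hKN hk)) hk
  have hKx : ∀ k ∈ K, x * k * x⁻¹ ∈ K := by
    intro k hk
    rw [show x * k * x⁻¹ = (x * k * x⁻¹ * k⁻¹) * k by group]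
    exact K.mul_mem (hcK ⟨k, hKN hk⟩) hk
  have htop : N ⊔ Subgroup.zpowers x = ⊤ := by
    rw [← Subgroup.index_eq_one]
    have h1 := Subgroup.relIndex_mul_index (le_sup_left : N ≤ N ⊔ Subgroup.zpowers x)
    rw [hN] at h1
    rcases (Nat.dvd_prime hp.out).mp (h1 ▸ dvd_mul_left (N ⊔ Subgroup.zpowers x).index _) with h2 | h2
    · exact h2
    · rw [h2] at h1
      exact absurd (Subgroup.relIndex_eq_one.mp ((mul_eq_right₀ hp.out.ne_zero).mp h1)
        (Subgroup.mem_sup_right (Subgroup.mem_zpowers x))) hx
  haveI hKnormal : K.Normal := by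
    rw [← Subgroup.normalizer_eq_top_iff, eq_top_iff, ← htop]
    refine sup_le (fun n hn => ?_) (Subgroup.zpowers_le.mpr ?_)
    · rw [Subgroup.mem_normalizer_iff]
      exact fun k => ⟨fun hk => hKn k hk n hn, fun hk => by
        have := hKn _ hk n⁻¹ (N.inv_mem hn); simpa [mul_assoc] using this⟩
    · have hm : K.map (MulAut.conj x).toMonoidHom = K := by
        refine Subgroup.eq_of_le_of_card_ge ?_ (Subgroup.card_map_of_injective (MulAut.conj x).injective).ge
        rintro _ ⟨k, hk, rfl⟩; exact hKx k hk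
      rw [Subgroup.mem_normalizer_iff]
      intro k
      refine ⟨hKx k, fun hk => ?_⟩
      rw [← hm] at hk
      obtain ⟨k', hk', he⟩ := hk
      have : k' = k := (MulAut.conj x).injective (by simpa using he)
      exact this ▸ hk'
  have hPK : commutator P = K := by
    apply le_antisymm
    · refine Subgroup.commutator_le.mpr fun a _ b _ => ?_
      rw [← QuotientGroup.eq_one_iff, ← QuotientGroup.mk'_apply, map_commutatorElement, commutatorElement_eq_one_iff_mul_comm]
      have key : ∀ y : P, ∀ n ∈ N, QuotientGroup.mk' K y * QuotientGroup.mk' K n = QuotientGroup.mk' K n * QuotientGroup.mk' K y := by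
        intro y
        have hy : y ∈ N ⊔ Subgroup.zpowers x := htop ▸ Subgroup.mem_top y
        have hle : N ⊔ Subgroup.zpowers x ≤ (Subgroup.centralizer ((QuotientGroup.mk' K) '' N)).comap (QuotientGroup.mk' K) := by
          refine sup_le (fun m hm => ?_) (Subgroup.zpowers_le.mpr ?_) <;>
            rw [Subgroup.mem_comap, Subgroup.mem_centralizer_iff] <;> rintro _ ⟨n, hn, rfl⟩
          · rw [← commutatorElement_eq_one_iff_mul_comm, ← map_commutatorElement, QuotientGroup.mk'_apply, QuotientGroup.eq_one_iff]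
            exact hNN n hn m hm
          · refine Eq.symm ?_
            rw [← commutatorElement_eq_one_iff_mul_comm, ← map_commutatorElement, QuotientGroup.mk'_apply, QuotientGroup.eq_one_iff]
            exact hcK ⟨n, hn⟩
        exact fun n hn => (Subgroup.mem_centralizer_iff.mp (hle hy) _ ⟨n, hn, rfl⟩).symm
      have hle : N ⊔ Subgroup.zpowers x ≤ (Subgroup.centralizer {QuotientGroup.mk' K x}).comap (QuotientGroup.mk' K) := by
        refine sup_le (fun n hn => ?_) (Subgroup.zpowers_le.mpr ?_) <;>
          rw [Subgroup.mem_comap, Subgroup.mem_centralizer_singleton_iff]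
        exact (key x n hn).symm
      have hle2 : N ⊔ Subgroup.zpowers x ≤ (Subgroup.centralizer {QuotientGroup.mk' K a}).comap (QuotientGroup.mk' K) := by
        refine sup_le (fun n hn => ?_) (Subgroup.zpowers_le.mpr ?_) <;>
          rw [Subgroup.mem_comap, Subgroup.mem_centralizer_singleton_iff]
        · exact (key a n hn).symm
        · exact (Subgroup.mem_centralizer_singleton_iff.mp (hle (htop ▸ Subgroup.mem_top a))).symm
      exact (Subgroup.mem_centralizer_singleton_iff.mp (hle2 (htop ▸ Subgroup.mem_top b))).symm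
    · rintro _ ⟨r, hr, rfl⟩
      obtain ⟨n, hn⟩ := hr
      have h1 : r⁻¹ * c n ∈ commutator N := QuotientGroup.eq.mp hn.symm
      have h2 : ((r⁻¹ * c n : N) : P) ∈ commutator P :=
        (show (commutator N).map N.subtype ≤ commutator P by rw [commutator_def, Subgroup.map_commutator, commutator_def]; exact Subgroup.commutator_mono le_top le_top) ⟨_, h1, rfl⟩
      have h3 : (c n : P) ∈ commutator P := comm_mem (a := x) (b := (n : P))
      have := (commutator P).mul_mem h3 ((commutator P).inv_mem h2)
      simpa using this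
  have hfull : Abelianization.of (G := N) |> Function.Surjective := QuotientGroup.mk_surjective
  have e1 : R.index = f.range.index := Subgroup.index_comap_of_surjective _ hfull
  have e2 : (commutator P).index = R.index * p := by
    rw [hPK, ← Subgroup.relIndex_mul_index hKN, hN, Subgroup.relIndex, Subgroup.subgroupOf, hKdef,
      Subgroup.comap_map_eq_self_of_injective N.subtype_injective]
  have e3 := Subgroup.card_mul_index f.ker
  rw [Subgroup.index_ker] at e3
  have e4 := Subgroup.card_mul_index f.range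
  have e5 : Nat.card (commutator N) * Nat.card (Abelianization N) = Nat.card N := by
    rw [show Nat.card (Abelianization N) = (commutator N).index from rfl, Subgroup.card_mul_index]
  rw [e2, e1, ← mul_assoc]
  congr 1
  refine Nat.eq_of_mul_eq_mul_right (Nat.card_pos (α := f.range)) ?_
  rw [e3, mul_assoc, mul_comm f.range.index, e4, e5]

end CfsgLib.PFourth

namespace CfsgLib.PFourth

variable {G : Type*} [Group G] [Finite G] {p : ℕ} [hp : Fact p.Prime]

/-- A nilpotent group with cyclic abelianization is abelian. -/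
theorem center_of_cyclic_abelianization [IsCyclic (G ⧸ commutator G)] [Group.IsNilpotent G] (g : G) (hg : g ∈ commutator G) :
    g ∈ Subgroup.center G := by
  obtain ⟨q, hq⟩ := IsCyclic.exists_generator (α := G ⧸ commutator G)
  obtain ⟨a, rfl⟩ := QuotientGroup.mk_surjective q
  haveI : Group.IsNilpotent (⊤ : Subgroup G) := inferInstance
  have hfr : commutator G ≤ frattini G := CfsgLib.Solvable.commutator_le_frattini (F := (⊤ : Subgroup G)) inferInstance
  have htop : Subgroup.zpowers a ⊔ frattini G = ⊤ := by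
    rw [eq_top_iff]
    intro y _
    obtain ⟨k, hk⟩ := hq (QuotientGroup.mk y)
    have hk' : (a ^ k)⁻¹ * y ∈ commutator G := QuotientGroup.eq.mp (by simpa using hk)
    simpa using Subgroup.mul_mem_sup (Subgroup.zpow_mem_zpowers a k) (hfr hk')
  have ht := frattini_nongenerating htop
  rw [Subgroup.mem_center_iff]
  intro y
  obtain ⟨i, rfl⟩ : y ∈ Subgroup.zpowers a := ht ▸ Subgroup.mem_top y
  obtain ⟨j, rfl⟩ : g ∈ Subgroup.zpowers a := ht ▸ Subgroup.mem_top g
  exact (Commute.refl a).zpow_zpow i j

/-- A normal subgroup of order `p` of a p-group is central. -/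
theorem prime_normal_central (hG : IsPGroup p G) (N : Subgroup G) [N.Normal] (hN : Nat.card N = p) :
    N ≤ Subgroup.center G := by
  intro d hd
  rw [Subgroup.mem_center_iff]
  intro g
  let φ : G →* MulAut N := MulAut.conjNormal
  haveI : IsCyclic N := isCyclic_of_prime_card hN
  let aut : MulAut N ≃* (ZMod (Nat.card N))ˣ := IsCyclic.mulAutMulEquiv _
  have hg : φ g = 1 := by
    obtain ⟨k, hk⟩ := hG g
    have h1 : orderOf (φ g) ∣ p ^ k := (orderOf_map_dvd _ _).trans (orderOf_dvd_of_pow_eq_one hk)
    have h2 : orderOf (φ g) ∣ p - 1 := by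
      rw [← aut.orderOf_eq]
      refine (orderOf_dvd_natCard _).trans ?_
      rw [hN, Nat.card_eq_fintype_card, ZMod.card_units]
    exact orderOf_eq_one_iff.mp (Nat.eq_one_of_dvd_coprimes
      ((hp.out.coprime_iff_not_dvd.mpr fun hd' => by
        have := hp.out.two_le
        have := Nat.le_of_dvd (by omega) hd'
        omega).pow_left k) h1 h2)
  have := congrArg Subtype.val (DFunLike.congr_fun hg (⟨d, hd⟩ : N))
  rw [MulAut.conjNormal_apply] at this
  exact mul_inv_eq_iff_eq_mul.mp this

/-- The class of a group of order `p⁴` is at most `3`. -/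
theorem class_le (hG : Nat.card G = p ^ 4) : Group.nilpotencyClass G ≤ 3 := by
  haveI : Group.IsNilpotent G := (IsPGroup.of_card hG).isNilpotent
  rw [← Subgroup.lowerCentralSeries_eq_bot_iff_nilpotencyClass_le]
  by_contra hne
  have hlt : ∀ i, (⊤ : Subgroup G).lowerCentralSeries i ≠ ⊥ →
      (⊤ : Subgroup G).lowerCentralSeries (i + 1) < (⊤ : Subgroup G).lowerCentralSeries i := by
    intro i hi
    refine lt_of_le_of_ne (Subgroup.lowerCentralSeries_antitone _ (Nat.le_succ i)) fun heq => hi ?_
    have hconst : ∀ j, (⊤ : Subgroup G).lowerCentralSeries (i + j) = (⊤ : Subgroup G).lowerCentralSeries i := by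
      intro j
      induction j with
      | zero => rfl
      | succ j ih =>
        rw [← add_assoc, Subgroup.lowerCentralSeries_succ, ih, ← Subgroup.lowerCentralSeries_succ, heq]
    obtain ⟨n, hn⟩ := Subgroup.nilpotent_iff_lowerCentralSeries.mp (inferInstance : Group.IsNilpotent G)
    rw [← hconst n]
    exact le_bot_iff.mp ((Subgroup.lowerCentralSeries_antitone _ (Nat.le_add_left n i)).trans hn.le)
  set L := fun i => (⊤ : Subgroup G).lowerCentralSeries i
  have hLne : ∀ i ≤ 3, L i ≠ ⊥ := fun i hi e =>
    hne (le_bot_iff.mp ((Subgroup.lowerCentralSeries_antitone _ hi).trans e.le))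
  have hdiv : ∀ i ≤ 3, Nat.card (L (i + 1)) * p ∣ Nat.card (L i) := by
    intro i hi
    have h1 := hlt i (hLne i hi)
    obtain ⟨k, -, hk⟩ := (Nat.dvd_prime_pow hp.out).mp (hG ▸ Subgroup.card_subgroup_dvd_card (L (i + 1)))
    obtain ⟨m, -, hm⟩ := (Nat.dvd_prime_pow hp.out).mp (hG ▸ Subgroup.card_subgroup_dvd_card (L i))
    have h3 : Nat.card (L (i + 1)) < Nat.card (L i) := by
      refine lt_of_le_of_ne (Subgroup.card_le_of_le h1.le) fun e => h1.ne ?_
      exact Subgroup.eq_of_le_of_card_ge h1.le e.ge
    rw [hk, hm] at h3 ⊢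
    rw [← pow_succ]
    exact pow_dvd_pow p ((Nat.pow_lt_pow_iff_right hp.out.one_lt).mp h3)
  -- the last non-trivial step has a cyclic top factor
  have h01 : (L 1).index ≥ p ^ 2 := by
    by_contra hlt2
    obtain ⟨k, -, hk⟩ := (Nat.dvd_prime_pow hp.out).mp (hG ▸ (L 1).index_dvd_card)
    have hk1 : k < 2 := by
      by_contra hk2; exact hlt2 (hk ▸ Nat.pow_le_pow_right hp.out.pos (by omega))
    apply hLne 2 (by norm_num)
    show ⁅L 1, (⊤ : Subgroup G)⁆ = ⊥
    haveI : (L 1).Normal := inferInstance
    rw [Subgroup.commutator_eq_bot_iff_le_centralizer, Subgroup.coe_top, Subgroup.centralizer_univ]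
    intro g hg
    haveI : IsCyclic (G ⧸ commutator G) := by
      rcases (show k = 0 ∨ k = 1 by omega) with rfl | rfl
      · haveI : Subsingleton (G ⧸ commutator G) := by
          refine (Nat.card_eq_one_iff_unique.mp ?_).1
          rw [← Subgroup.index_eq_card]; exact hk.trans (pow_zero p)
        infer_instance
      · exact isCyclic_of_prime_card (p := p) (by rw [← Subgroup.index_eq_card]; exact hk.trans (pow_one p))
    exact center_of_cyclic_abelianization g hg
  have e1 : Nat.card (L 1) * p ^ 2 ≤ p ^ 4 := by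
    rw [← hG, ← Subgroup.card_mul_index (L 1)]; exact Nat.mul_le_mul_left _ h01
  have e2 := Nat.le_of_dvd Nat.card_pos (hdiv 1 (by norm_num))
  have e3 := Nat.le_of_dvd Nat.card_pos (hdiv 2 (by norm_num))
  have e4 := Nat.le_of_dvd Nat.card_pos (hdiv 3 (by norm_num))
  have e5 : 1 ≤ Nat.card (L 4) := Nat.card_pos
  have e6 : p ^ 3 * p ^ 2 ≤ p ^ 4 := by
    refine le_trans (Nat.mul_le_mul_right _ ?_) e1
    calc p ^ 3 = 1 * p * p * p := by ring
      _ ≤ Nat.card (L 4) * p * p * p := Nat.mul_le_mul_right p (Nat.mul_le_mul_right p (Nat.mul_le_mul_right p e5))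
      _ ≤ Nat.card (L 3) * p * p := Nat.mul_le_mul_right p (Nat.mul_le_mul_right p e4)
      _ ≤ Nat.card (L 2) * p := Nat.mul_le_mul_right p e3
      _ ≤ Nat.card (L 1) := e2
  rw [← pow_add] at e6
  exact absurd ((Nat.pow_le_pow_iff_right hp.out.one_lt).mp e6) (by norm_num)

end CfsgLib.PFourth
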